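import Mathlib
import Cfsg.Agent.Lib.Sporadic.M24Act
import Cfsg.Agent.S0414

/-!
# The pointwise stabiliser of two points in `M24` is simple
-/

set_option autoImplicit false

namespace Cfsg.Agent.Lib.Sporadic.M22Simple

open Cfsg Cfsg.Agent.Lib.Sporadic.GolayCore Cfsg.Agent.Lib.Sporadic.M24Tbl
open Cfsg.Agent.Lib.Sporadic.M24Chain Cfsg.Agent.Lib.Sporadic.M24Basic Cfsg.Agent.Lib.Sporadic.M24Act
open scoped Pointwise

/-- The first point. -/
abbrev p0 : GolayPt := pt 0
/-- The second point. -/
abbrev p1 : GolayPt := pt 23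

theorem p0_ne_p1 : p0 ≠ p1 := by decide

/-- The other 22 points. -/
abbrev Pts := {x : GolayPt // x ≠ p0 ∧ x ≠ p1}

theorem card_Pts : Fintype.card Pts = 22 := by decide +kernel

/-- The inclusion. -/
def emb : Pts ↪ GolayPt := ⟨Subtype.val, Subtype.val_injective⟩

/-- The set containing the two points. -/
def ext (s : Finset Pts) : Finset GolayPt := insert p0 (insert p1 (s.map emb))

theorem ext_inj : Function.Injective ext := by
  intro s s' h
  ext x
  have key : ∀ t : Finset Pts, x ∈ t ↔ x.1 ∈ ext t := by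
    intro t
    simp only [ext, Finset.mem_insert, Finset.mem_map, emb, Function.Embedding.coeFn_mk]
    constructor
    · intro hx
      exact Or.inr (Or.inr ⟨x, hx, rfl⟩)
    · rintro (h | h | ⟨y, hy, e⟩)
      · exact absurd h x.2.1
      · exact absurd h x.2.2
      · have : y = x := Subtype.ext e
        rwa [this] at hy
  rw [key, key, h]

theorem card_ext (s : Finset Pts) : (ext s).card = s.card + 2 := by
  have h1 : p1 ∉ s.map emb := by
    intro h
    obtain ⟨y, -, e⟩ := Finset.mem_map.1 h
    exact y.2.2 e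
  have h0 : p0 ∉ insert p1 (s.map emb) := by
    rw [Finset.mem_insert]
    rintro (h | h)
    · exact p0_ne_p1 h
    · obtain ⟨y, -, e⟩ := Finset.mem_map.1 h
      exact y.2.1 e
  rw [ext, Finset.card_insert_of_notMem h0, Finset.card_insert_of_notMem h1, Finset.card_map]

/-- The derived design. -/
def blocks : Set (Finset Pts) := {s | ext s ∈ octads}

theorem ext_of_octad {o : Finset GolayPt} (h0 : p0 ∈ o) (h1 : p1 ∈ o) :
    ext (Finset.univ.filter fun x : Pts => x.1 ∈ o) = o := by
  ext x
  simp only [ext, Finset.mem_insert, Finset.mem_map, Finset.mem_filter, Finset.mem_univ, true_and, emb,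
    Function.Embedding.coeFn_mk]
  constructor
  · rintro (rfl | rfl | ⟨y, hy, rfl⟩)
    · exact h0
    · exact h1
    · exact hy
  · intro hx
    by_cases e0 : x = p0
    · exact Or.inl e0
    by_cases e1 : x = p1
    · exact Or.inr (Or.inl e1)
    exact Or.inr (Or.inr ⟨⟨x, e0, e1⟩, hx, rfl⟩)

theorem steiner_blocks : IsSteinerSystem 3 6 blocks := by
  refine ⟨?_, ?_⟩
  · intro b hb
    have h1 : (ext b).card = 8 := steiner.1 _ hb
    rw [card_ext] at h1
    omega
  · intro s hs
    have h5 : (ext s).card = 5 := by rw [card_ext, hs]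
    obtain ⟨o, ⟨ho, hso⟩, huniq⟩ := steiner.2 _ h5
    have h0 : p0 ∈ o := hso (by simp [ext])
    have h1 : p1 ∈ o := hso (by simp [ext])
    have hext := ext_of_octad h0 h1
    refine ⟨Finset.univ.filter fun x : Pts => x.1 ∈ o, ⟨?_, ?_⟩, ?_⟩
    · show ext _ ∈ octads
      rw [hext]
      exact ho
    · intro x hx
      simp only [Finset.mem_filter, Finset.mem_univ, true_and]
      apply hso
      simp only [ext, Finset.mem_insert, Finset.mem_map, emb, Function.Embedding.coeFn_mk]
      exact Or.inr (Or.inr ⟨x, hx, rfl⟩)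
    · rintro b ⟨hb, hsb⟩
      apply ext_inj
      rw [hext]
      apply huniq
      refine ⟨hb, ?_⟩
      intro x hx
      simp only [ext, Finset.mem_insert, Finset.mem_map, emb, Function.Embedding.coeFn_mk] at hx ⊢
      rcases hx with h | h | ⟨y, hy, e⟩
      · exact Or.inl h
      · exact Or.inr (Or.inl h)
      · exact Or.inr (Or.inr ⟨y, hsb hy, e⟩)

abbrev K2 : Subgroup (Equiv.Perm GolayPt) := fixG [0, 23]

theorem K2_fix {g : Equiv.Perm GolayPt} (hg : g ∈ K2) : g ∈ M24 ∧ g p0 = p0 ∧ g p1 = p1 := by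
  have := mem_fixG.1 hg
  exact ⟨this.1, this.2 0 (by simp), this.2 23 (by simp)⟩

/-- The restriction of a permutation fixing the two points. -/
def resPerm (g : K2) : Equiv.Perm Pts :=
  (g : Equiv.Perm GolayPt).subtypePerm (fun x => by
    obtain ⟨-, h0, h1⟩ := K2_fix g.2
    constructor
    · rintro ⟨e0, e1⟩
      refine ⟨?_, ?_⟩
      · intro h
        apply e0
        rw [h, h0]
      · intro h
        apply e1
        rw [h, h1]
    · rintro ⟨e0, e1⟩
      refine ⟨?_, ?_⟩
      · intro h
        exact e0 ((g : Equiv.Perm GolayPt).injective (by rw [h0]; exact h))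
      · intro h
        exact e1 ((g : Equiv.Perm GolayPt).injective (by rw [h1]; exact h)))

theorem resPerm_apply (g : K2) (x : Pts) : (resPerm g x : GolayPt) = (g : Equiv.Perm GolayPt) x := rfl

theorem ext_smul (g : K2) (s : Finset Pts) :
    ext (resPerm g • s) = (g : Equiv.Perm GolayPt) • ext s := by
  obtain ⟨-, h0, h1⟩ := K2_fix g.2
  ext x
  simp only [ext, Finset.mem_insert, Finset.mem_map, emb, Function.Embedding.coeFn_mk, Finset.mem_smul_finset,
    Equiv.Perm.smul_def]
  constructor
  · rintro (rfl | rfl | ⟨y, ⟨z, hz, rfl⟩, rfl⟩)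
    · exact ⟨p0, Or.inl rfl, h0⟩
    · exact ⟨p1, Or.inr (Or.inl rfl), h1⟩
    · exact ⟨z.1, Or.inr (Or.inr ⟨z, hz, rfl⟩), rfl⟩
  · rintro ⟨y, (rfl | rfl | ⟨z, hz, rfl⟩), rfl⟩
    · exact Or.inl h0
    · exact Or.inr (Or.inl h1)
    · exact Or.inr (Or.inr ⟨resPerm g z, ⟨z, hz, rfl⟩, rfl⟩)

theorem mem_blocks_smul (g : K2) (s : Finset Pts) : resPerm g • s ∈ blocks ↔ s ∈ blocks := by
  show ext (resPerm g • s) ∈ octads ↔ ext s ∈ octads
  rw [ext_smul]
  obtain ⟨hg, -, -⟩ := K2_fix g.2
  constructor
  · intro h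
    have := smul_mem_octads (M24.inv_mem hg) h
    rwa [inv_smul_smul] at this
  · intro h
    exact smul_mem_octads hg h

theorem resPerm_mem (g : K2) : resPerm g ∈ setSystemAut blocks := by
  show resPerm g • blocks = blocks
  ext s
  rw [Set.mem_smul_set_iff_inv_smul_mem]
  have h : ∀ t : Finset Pts, (resPerm g)⁻¹ • t ∈ blocks ↔ t ∈ blocks := by
    intro t
    rw [← mem_blocks_smul g ((resPerm g)⁻¹ • t), smul_inv_smul]
  exact h s

/-- The restriction homomorphism. -/
def res : K2 →* setSystemAut blocks where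
  toFun g := ⟨resPerm g, resPerm_mem g⟩
  map_one' := by
    apply Subtype.ext
    apply Equiv.ext
    intro x
    rfl
  map_mul' g g' := by
    apply Subtype.ext
    apply Equiv.ext
    intro x
    rfl

theorem res_injective : Function.Injective res := by
  rw [injective_iff_map_eq_one]
  intro g h
  have h1 : ∀ x : Pts, (resPerm g x : GolayPt) = x := by
    intro x
    have := congrFun (congrArg (fun f : setSystemAut blocks => ((f : Equiv.Perm Pts) : Pts → Pts)) h) x
    exact congrArg Subtype.val this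
  obtain ⟨-, h0, h2⟩ := K2_fix g.2
  apply Subtype.ext
  apply Equiv.ext
  intro x
  show (g : Equiv.Perm GolayPt) x = x
  by_cases e0 : x = p0
  · rw [e0, h0]
  by_cases e1 : x = p1
  · rw [e1, h2]
  exact h1 ⟨x, e0, e1⟩

theorem card_K2 : Nat.card K2 = 443520 := card_fixG_2

/-- The pointwise stabiliser of two points in `M24` is simple. -/
theorem simple_K2 : IsSimpleGroup K2 := by
  obtain ⟨hA, -, H, hidx, hHs, hHc⟩ := Cfsg.Agent.S0414.result (α := Pts) card_Pts steiner_blocks
  set I : Subgroup (setSystemAut blocks) := res.range with hI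
  have hIc : Nat.card I = 443520 := by
    rw [hI, Nat.card_congr (MonoidHom.ofInjective res_injective).symm.toEquiv, card_K2]
  have hIidx : I.index = 2 := by
    have := I.card_mul_index
    rw [hIc, hA] at this
    omega
  have hIn : I.Normal := Subgroup.normal_of_index_eq_two hIidx
  have hn : (I.subgroupOf H).Normal := inferInstance
  rcases hHs.eq_bot_or_eq_top_of_normal _ hn with h | h
  · exfalso
    rw [Subgroup.subgroupOf_eq_bot] at h
    have hinj : Function.Injective ((QuotientGroup.mk' I).comp H.subtype) := by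
      rw [injective_iff_map_eq_one]
      rintro ⟨x, hx⟩ h1
      have h2 : x ∈ I := (QuotientGroup.eq_one_iff x).1 h1
      have h3 : x ∈ I ⊓ H := Subgroup.mem_inf.2 ⟨h2, hx⟩
      rw [disjoint_iff.1 h, Subgroup.mem_bot] at h3
      exact Subtype.ext h3
    have := Nat.card_le_card_of_injective _ hinj
    rw [hHc] at this
    have h4 : Nat.card (setSystemAut blocks ⧸ I) = 2 := hIidx
    omega
  · rw [Subgroup.subgroupOf_eq_top] at h
    have heq : H = I := Subgroup.eq_of_le_of_card_ge h (by rw [hHc, hIc])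
    have hs : IsSimpleGroup I := heq ▸ hHs
    exact (MonoidHom.ofInjective res_injective).isSimpleGroup

end Cfsg.Agent.Lib.Sporadic.M22Simple
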