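import Mathlib
import Cfsg.Agent.Lib.Sporadic.LeechMonomial
import Cfsg.Agent.Lib.Sporadic.LeechTree2
import Cfsg.Agent.Lib.Sporadic.M22Simple

/-!
# Subgroups of the automorphism group of the lattice isomorphic to the two-point stabiliser of `M24`
-/

set_option autoImplicit false

namespace Cfsg.Agent.Lib.Sporadic.LeechK2

open Cfsg Cfsg.Agent.Lib.Sporadic.GolayCore Cfsg.Agent.Lib.Sporadic.LeechBasic
  Cfsg.Agent.Lib.Sporadic.LeechNorm Cfsg.Agent.Lib.Sporadic.LeechFacts
  Cfsg.Agent.Lib.Sporadic.LeechAut Cfsg.Agent.Lib.Sporadic.LeechMat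
  Cfsg.Agent.Lib.Sporadic.LeechMonomial Cfsg.Agent.Lib.Sporadic.M22Simple

/-- Conjugation transports simplicity. -/
theorem simple_of_conj {G : Type*} [Group G] (g : G) {B B' : Subgroup G} (h : ∀ x, x ∈ B ↔ g * x * g⁻¹ ∈ B')
    (hs : IsSimpleGroup B') : IsSimpleGroup B := by
  let e : B ≃* B' :=
    { toFun := fun x => ⟨g * x.1 * g⁻¹, (h x.1).1 x.2⟩
      invFun := fun y => ⟨g⁻¹ * y.1 * g, (h _).2 (by
        have : g * (g⁻¹ * y.1 * g) * g⁻¹ = y.1 := by group
        rw [this]
        exact y.2)⟩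
      left_inv := fun x => Subtype.ext (by group)
      right_inv := fun y => Subtype.ext (by group)
      map_mul' := fun x y => Subtype.ext (by
        show g * (x.1 * y.1) * g⁻¹ = g * x.1 * g⁻¹ * (g * y.1 * g⁻¹)
        group) }
  exact e.isSimpleGroup

theorem permCo0_mul' {σ τ : Equiv.Perm GolayPt} (hσ : σ ∈ M24) (hτ : τ ∈ M24) :
    permCo0 (σ * τ) (M24.mul_mem hσ hτ) = permCo0 σ hσ * permCo0 τ hτ := by
  apply co0_ext_u8
  intro i
  apply Subtype.ext
  rw [mul_smul, coe_permCo0_smul, coe_permCo0_smul, coe_permCo0_smul]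
  rfl

theorem permCo0_one : permCo0 1 M24.one_mem = 1 := by
  apply co0_ext_u8
  intro i
  apply Subtype.ext
  rw [coe_permCo0_smul]
  rfl

/-- The homomorphism from the two-point stabiliser. -/
noncomputable def k2Hom (B : Subgroup Co0) (hB : ∀ (σ : Equiv.Perm GolayPt) (hσ : σ ∈ K2), permCo0 σ (K2_fix hσ).1 ∈ B) :
    K2 →* B where
  toFun σ := ⟨permCo0 σ.1 (K2_fix σ.2).1, hB _ σ.2⟩
  map_one' := Subtype.ext permCo0_one
  map_mul' σ τ := Subtype.ext (permCo0_mul' (K2_fix σ.2).1 (K2_fix τ.2).1)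

theorem k2Hom_injective (B : Subgroup Co0) (hB : ∀ (σ : Equiv.Perm GolayPt) (hσ : σ ∈ K2), permCo0 σ (K2_fix hσ).1 ∈ B) :
    Function.Injective (k2Hom B hB) := by
  rw [injective_iff_map_eq_one]
  intro σ h
  have h1 : permCo0 σ.1 (K2_fix σ.2).1 = 1 := congrArg Subtype.val h
  apply Subtype.ext
  apply Equiv.ext
  intro i
  have h2 := congrArg (fun g : Co0 => ((g • u8 i : leechLattice) : GolayPt → ℤ)) h1
  simp only [coe_permCo0_smul, one_smul, coe_u8] at h2
  have h3 := congrFun h2 (σ.1 i)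
  simp only [permV, Equiv.symm_apply_apply, Pi.single_eq_same] at h3
  by_contra hne
  have hne' : (σ : Equiv.Perm GolayPt) i ≠ i := fun e => hne e
  rw [Pi.single_eq_of_ne hne'] at h3
  norm_num at h3

/-- A subgroup of the right order containing the image of the two-point stabiliser is simple. -/
theorem simple_of_k2 (B : Subgroup Co0) [Finite B] (hB : ∀ (σ : Equiv.Perm GolayPt) (hσ : σ ∈ K2), permCo0 σ (K2_fix hσ).1 ∈ B)
    (hcard : Nat.card B = 443520) : IsSimpleGroup B := by
  have hbij : Function.Bijective (k2Hom B hB) :=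
    (k2Hom_injective B hB).bijective_of_nat_card_le (by rw [hcard, card_K2])
  haveI := simple_K2
  exact (MulEquiv.ofBijective _ hbij).symm.isSimpleGroup

/-- A vector with constant coordinates away from the two points is fixed. -/
theorem permV_fix {l : List ℤ} (hl : (List.range 24).all (fun i => Nat.beq i 0 || Nat.beq i 23 || decide (l.getD i 0 = l.getD 1 0)) = true)
    {σ : Equiv.Perm GolayPt} (hσ : σ ∈ K2) : permV σ (vecOf l) = vecOf l := by
  obtain ⟨-, h0, h1⟩ := K2_fix hσ
  have key : ∀ q : GolayPt, q ≠ p0 → q ≠ p1 → vecOf l q = l.getD 1 0 := by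
    intro q hq0 hq1
    have h2 := List.all_eq_true.1 hl (idx q) (List.mem_range.2 (idx_lt q))
    simp only [Bool.or_eq_true, Nat.beq_eq, decide_eq_true_eq] at h2
    rcases h2 with (h2 | h2) | h2
    · exfalso
      apply hq0
      rw [p0, ← h2, pt_idx]
    · exfalso
      apply hq1
      rw [p1, ← h2, pt_idx]
    · exact h2
  funext i
  show vecOf l (σ.symm i) = vecOf l i
  by_cases e0 : i = p0
  · have : σ.symm i = i := by
      rw [e0, Equiv.symm_apply_eq, h0]
    rw [this]
  by_cases e1 : i = p1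
  · have : σ.symm i = i := by
      rw [e1, Equiv.symm_apply_eq, h1]
    rw [this]
  rw [key i e0 e1, key]
  · intro h
    apply e0
    rw [← Equiv.apply_symm_apply σ i, h, h0]
  · intro h
    apply e1
    rw [← Equiv.apply_symm_apply σ i, h, h1]

/-- The image of the two-point stabiliser fixes such a vector. -/
theorem perm_fix_smul {l : List ℤ} (hl : (List.range 24).all (fun i => Nat.beq i 0 || Nat.beq i 23 || decide (l.getD i 0 = l.getD 1 0)) = true)
    (hm : vecOf l ∈ leechLattice) {σ : Equiv.Perm GolayPt} (hσ : σ ∈ K2) :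
    permCo0 σ (K2_fix hσ).1 • (⟨vecOf l, hm⟩ : leechLattice) = ⟨vecOf l, hm⟩ :=
  Subtype.ext (permV_fix hl hσ)

end Cfsg.Agent.Lib.Sporadic.LeechK2
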