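import Mathlib
import Cfsg.Agent.Lib.Sporadic.LeechHSc
import Cfsg.Agent.Lib.Sporadic.LeechOrders
import Cfsg.Agent.Lib.Sporadic.LeechSimple
import Cfsg.Agent.Lib.Sporadic.LeechK2

/-!
# The joint stabiliser of two vectors of norm 48 with inner product -32 is simple of order 44352000
-/

set_option autoImplicit false

namespace Cfsg.Agent.Lib.Sporadic.LeechHS

open Cfsg Cfsg.Agent.Lib.Sporadic.GolayCore Cfsg.Agent.Lib.Sporadic.LeechBasic
  Cfsg.Agent.Lib.Sporadic.LeechNorm Cfsg.Agent.Lib.Sporadic.LeechFacts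
  Cfsg.Agent.Lib.Sporadic.LeechAut Cfsg.Agent.Lib.Sporadic.LeechMat
  Cfsg.Agent.Lib.Sporadic.LeechOrb Cfsg.Agent.Lib.Sporadic.LeechShape
  Cfsg.Agent.Lib.Sporadic.LeechKey Cfsg.Agent.Lib.Sporadic.LeechMin
  Cfsg.Agent.Lib.Sporadic.LeechA0 Cfsg.Agent.Lib.Sporadic.LeechEnum
  Cfsg.Agent.Lib.Sporadic.LeechTree
  Cfsg.Agent.Lib.Sporadic.M24Chain Cfsg.Agent.Lib.Sporadic.M24Tbl
open Cfsg.Agent.Lib.Sporadic.LeechCo3 Cfsg.Agent.Lib.Sporadic.LeechOrders Cfsg.Agent.Lib.Sporadic.LeechSimple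
  Cfsg.Agent.Lib.Sporadic.LeechK2 Cfsg.Agent.Lib.Sporadic.SimpleAct
open MulAction

/-- The stabiliser of a vector of norm 48 and of a minimal vector of inner product `-16` with it. -/
theorem card_pair (v x : leechLattice) (hv : sqNorm (v : V) = 48)
    (hx : sqNorm (x : V) = 32 ∧ dotInt (v : V) (x : V) = -16) :
    Nat.card ↥(stabilizer Co0 v ⊓ stabilizer Co0 x) = 44352000 := by
  have h := card_inf_stab (stabilizer Co0 v) x {x : leechLattice | sqNorm (x : V) = 32 ∧ dotInt (v : V) (x : V) = -16}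
    hx
    (by
      rintro k hk z ⟨h1, h2⟩
      have hk' : k • v = v := hk
      refine ⟨(co0_sqNorm k z).trans h1, ?_⟩
      rw [← hk', co0_dotInt]
      exact h2)
    (by
      intro z hz
      obtain ⟨k, hk1, hk2⟩ := trans_X v x z hv hx hz
      exact ⟨k, hk1, hk2⟩)
  rw [card_stab48 v hv, ncard_X v hv] at h
  omega

theorem stab_pair_eq (v w : leechLattice) :
    stabilizer Co0 v ⊓ stabilizer Co0 w = stabilizer Co0 v ⊓ stabilizer Co0 (-(v + w)) := by
  ext g
  simp only [Subgroup.mem_inf, mem_stabilizer_iff]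
  constructor
  · rintro ⟨h1, h2⟩
    refine ⟨h1, ?_⟩
    rw [co0_map_neg, co0_map_add, h1, h2]
  · rintro ⟨h1, h2⟩
    refine ⟨h1, ?_⟩
    rw [co0_map_neg, co0_map_add, h1, neg_inj] at h2
    exact add_left_cancel h2

theorem norm_neg_add (v w : leechLattice) (hv : sqNorm (v : V) = 48)
    (hw : sqNorm (w : V) = 48) (hvw : dotInt (v : V) (w : V) = -32) :
    sqNorm ((-(v + w) : leechLattice) : V) = 32 ∧ dotInt (v : V) ((-(v + w) : leechLattice) : V) = -16 := by
  have hcoe : ((-(v + w) : leechLattice) : V) = -((v : V) + (w : V)) := rfl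
  rw [hcoe, sqNorm_neg, sqNorm_add, dotInt_neg_right, dotInt_add_right, dotInt_self, hv, hw, hvw]
  norm_num

/-- The order of the Higman-Sims group. -/
theorem card_HS (v w : leechLattice) (hv : sqNorm (v : V) = 48)
    (hw : sqNorm (w : V) = 48) (hvw : dotInt (v : V) (w : V) = -32) :
    Nat.card ↥(stabilizer Co0 v ⊓ stabilizer Co0 w) = 44352000 := by
  rw [stab_pair_eq]
  exact card_pair v _ hv (norm_neg_add v w hv hw hvw)

theorem Y00_mem : sqNorm (Y00 : V) = 32 ∧ dotInt (U0 : V) (Y00 : V) = 24 ∧ dotInt (W0 : V) (Y00 : V) = -24 := by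
  refine ⟨?_, ?_, ?_⟩
  · show sqNorm (vecOf y00L) = 32
    rw [sqNorm_vecOf]
    decide +kernel
  · show dotInt (vecOf u0L) (vecOf y00L) = 24
    rw [dotInt_vecOf]
    decide +kernel
  · show dotInt (vecOf w0L) (vecOf y00L) = -24
    rw [dotInt_vecOf]
    decide +kernel

theorem dot_U0_W0 : dotInt (U0 : V) (W0 : V) = -32 := by
  show dotInt (vecOf u0L) (vecOf w0L) = -32
  rw [dotInt_vecOf]
  decide +kernel

/-- The order of a point stabiliser. -/
theorem card_KH1 : Nat.card KH1 = 443520 := by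
  have h := card_inf_stab KH Y00
    {x : leechLattice | sqNorm (x : V) = 32 ∧ dotInt (U0 : V) (x : V) = 24 ∧ dotInt (W0 : V) (x : V) = -24} Y00_mem
    (by
      rintro k hk z ⟨h1, h2, h3⟩
      obtain ⟨hk1, hk2⟩ := Subgroup.mem_inf.1 hk
      have hk1' : k • U0 = U0 := hk1
      have hk2' : k • W0 = W0 := hk2
      refine ⟨(co0_sqNorm k z).trans h1, ?_, ?_⟩
      · rw [← hk1', co0_dotInt]
        exact h2
      · rw [← hk2', co0_dotInt]
        exact h3)
    (by
      intro z hz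
      obtain ⟨k, h1, h2, h3⟩ := trans_Y U0 W0 Y00 z sqNorm_U0 sqNorm_W0 dot_U0_W0 Y00_mem hz
      exact ⟨k, Subgroup.mem_inf.2 ⟨h1, h2⟩, h3⟩)
  rw [ncard_Y U0 W0 sqNorm_U0 sqNorm_W0 dot_U0_W0] at h
  have h2 : Nat.card KH = 44352000 := card_HS U0 W0 sqNorm_U0 sqNorm_W0 dot_U0_W0
  rw [h2] at h
  have h3 : Nat.card KH1 = Nat.card ↥(KH ⊓ stabilizer Co0 Y00) := rfl
  omega

theorem simple_KH1 : IsSimpleGroup KH1 := by
  refine simple_of_k2 KH1 ?_ card_KH1
  intro σ hσ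
  refine Subgroup.mem_inf.2 ⟨Subgroup.mem_inf.2 ⟨?_, ?_⟩, ?_⟩
  · exact perm_fix_smul (l := u0L) (by decide +kernel) (inLattice_sound u0L_ok) hσ
  · exact perm_fix_smul (l := w0L) (by decide +kernel) (inLattice_sound w0L_ok) hσ
  · exact perm_fix_smul (l := y00L) (by decide +kernel) (inLattice_sound y00L_ok) hσ

theorem conj_mem_stab (g y : Co0) (v : leechLattice) : g * y * g⁻¹ ∈ stabilizer Co0 (g • v) ↔ y ∈ stabilizer Co0 v := by
  simp only [mem_stabilizer_iff, mul_smul, inv_smul_smul]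
  exact smul_left_cancel_iff g

/-- A point stabiliser is simple. -/
theorem simple_stab3 (v w x : leechLattice) (hv : sqNorm (v : V) = 48)
    (hw : sqNorm (w : V) = 48) (hvw : dotInt (v : V) (w : V) = -32)
    (hx : sqNorm (x : V) = 32 ∧ dotInt (v : V) (x : V) = 24 ∧ dotInt (w : V) (x : V) = -24) :
    IsSimpleGroup ↥(stabilizer Co0 v ⊓ stabilizer Co0 w ⊓ stabilizer Co0 x) := by
  obtain ⟨g, hg1, hg2, hg3⟩ := exists_frame3 v w x hv hw hvw hx
  refine simple_of_conj g (B' := KH1) ?_ simple_KH1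
  intro y
  simp only [Subgroup.mem_inf, KH1, KH]
  rw [← hg1, ← hg2, ← hg3, conj_mem_stab, conj_mem_stab, conj_mem_stab]

/-- The Higman-Sims group is simple. -/
theorem simple_HS (v w : leechLattice) (hv : sqNorm (v : V) = 48)
    (hw : sqNorm (w : V) = 48) (hvw : dotInt (v : V) (w : V) = -32) :
    IsSimpleGroup ↥(stabilizer Co0 v ⊓ stabilizer Co0 w) := by
  classical
  obtain ⟨g, hg1, hg2⟩ := exists_frame v w hv hw hvw
  set S : Set leechLattice := {x : leechLattice | sqNorm (x : V) = 32 ∧ dotInt (v : V) (x : V) = 24 ∧ dotInt (w : V) (x : V) = -24} with hSdef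
  have hc : S.ncard = 100 := ncard_Y v w hv hw hvw
  let a : leechLattice := g⁻¹ • Y00
  have ha : a ∈ S := by
    have h1 := (mem_Y_frame hg1 hg2 a).2 (by
      rw [smul_inv_smul]
      intro bt hbt
      simp only [condsY, List.mem_cons, List.not_mem_nil, or_false] at hbt
      rcases hbt with rfl | rfl
      · exact Y00_mem.2.2
      · exact Y00_mem.2.1)
    exact ⟨(co0_sqNorm _ _).trans Y00_mem.1, h1.1, h1.2⟩
  have hcardD : ∀ c : ℤ, {y : leechLattice | y ∈ S ∧ dotInt (a : V) (y : V) = c}.ncard = (setC ((y00L, c) :: condsY)).ncard := by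
    intro c
    rw [← ncard_rank3 v w a hv hw hvw ha c]
    congr 1
    ext y
    constructor
    · rintro ⟨⟨h1, h2, h3⟩, h4⟩
      exact ⟨h1, h4, h2, h3⟩
    · rintro ⟨h1, h4, h2, h3⟩
      exact ⟨⟨h1, h2, h3⟩, h4⟩
  refine simple_of_dots (stabilizer Co0 v ⊓ stabilizer Co0 w) S ?_ (Set.finite_of_ncard_pos (by omega)) a ha ha.1 ?_
    [(8, 22), (16, 77)] ?_ (by decide) ?_ ?_ ?_ (by rw [hc]; decide) ?_ ⟨(8, 22), by simp, by norm_num⟩ ?_
  · rintro k hk z ⟨h1, h2, h3⟩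
    obtain ⟨hk1, hk2⟩ := Subgroup.mem_inf.1 hk
    have hk1' : k • v = v := hk1
    have hk2' : k • w = w := hk2
    refine ⟨(co0_sqNorm k z).trans h1, ?_, ?_⟩
    · rw [← hk1', co0_dotInt]
      exact h2
    · rw [← hk2', co0_dotInt]
      exact h3
  · intro z hz
    obtain ⟨k, h1, h2, h3⟩ := trans_Y v w a z hv hw hvw ha hz
    exact ⟨k, Subgroup.mem_inf.2 ⟨h1, h2⟩, h3⟩
  · intro q hq
    simp only [List.mem_cons, List.not_mem_nil, or_false] at hq
    rcases hq with rfl | rfl <;> norm_num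
  · intro q hq
    simp only [List.mem_cons, List.not_mem_nil, or_false] at hq
    rcases hq with rfl | rfl
    · rw [hcardD]
      exact ncard_22
    · rw [hcardD]
      exact ncard_77
  · intro y hy hne
    rcases dots_frame v w a hv hw hvw ha y hy.1 hy.2.1 hy.2.2 with h | h | h
    · exact ⟨(8, 22), by simp, h⟩
    · exact ⟨(16, 77), by simp, h⟩
    · exact absurd h hne
  · intro q hq y hy y' hy' h1 h2
    simp only [List.mem_cons, List.not_mem_nil, or_false] at hq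
    rcases hq with rfl | rfl
    · obtain ⟨k, f1, f2, f3, f4⟩ := trans_frame v w a hv hw hvw ha y y' hy hy' (Or.inl ⟨h1, h2⟩)
      exact ⟨k, Subgroup.mem_inf.2 ⟨f1, f2⟩, f3, f4⟩
    · obtain ⟨k, f1, f2, f3, f4⟩ := trans_frame v w a hv hw hvw ha y y' hy hy' (Or.inr ⟨h1, h2⟩)
      exact ⟨k, Subgroup.mem_inf.2 ⟨f1, f2⟩, f3, f4⟩
  · exact simple_stab3 v w a hv hw hvw ha
  · intro N _ _ hN hC
    exact false_100 (by rw [hN, hc]) hC

end Cfsg.Agent.Lib.Sporadic.LeechHS
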