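import Mathlib
import Cfsg.Agent.Lib.Sporadic.LeechMcTb
import Cfsg.Agent.Lib.Sporadic.LeechOrders
import Cfsg.Agent.Lib.Sporadic.LeechSimple
import Cfsg.Agent.Lib.Sporadic.LeechK2

/-!
# The joint stabiliser of two minimal vectors of inner product -8 is simple of order 898128000
-/

set_option autoImplicit false

namespace Cfsg.Agent.Lib.Sporadic.LeechMcT

open Cfsg Cfsg.Agent.Lib.Sporadic.GolayCore Cfsg.Agent.Lib.Sporadic.LeechBasic
  Cfsg.Agent.Lib.Sporadic.LeechNorm Cfsg.Agent.Lib.Sporadic.LeechFacts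
  Cfsg.Agent.Lib.Sporadic.LeechAut Cfsg.Agent.Lib.Sporadic.LeechMat
  Cfsg.Agent.Lib.Sporadic.LeechOrb Cfsg.Agent.Lib.Sporadic.LeechShape
  Cfsg.Agent.Lib.Sporadic.LeechKey Cfsg.Agent.Lib.Sporadic.LeechMin
  Cfsg.Agent.Lib.Sporadic.LeechA0 Cfsg.Agent.Lib.Sporadic.LeechEnum
  Cfsg.Agent.Lib.Sporadic.LeechTree
  Cfsg.Agent.Lib.Sporadic.M24Chain Cfsg.Agent.Lib.Sporadic.M24Tbl
open Cfsg.Agent.Lib.Sporadic.LeechOrders Cfsg.Agent.Lib.Sporadic.LeechSimple
  Cfsg.Agent.Lib.Sporadic.LeechK2 Cfsg.Agent.Lib.Sporadic.SimpleAct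
open MulAction

theorem Z0_mem : sqNorm (Z0 : V) = 32 ∧ dotInt (V0 : V) (Z0 : V) = 0 ∧ dotInt (W1 : V) (Z0 : V) = 16 := by
  refine ⟨?_, ?_, ?_⟩
  · show sqNorm (vecOf z0L) = 32
    rw [sqNorm_vecOf]
    decide +kernel
  · show dotInt (vecOf v0L) (vecOf z0L) = 0
    rw [dotInt_vecOf]
    decide +kernel
  · show dotInt (vecOf w1L) (vecOf z0L) = 16
    rw [dotInt_vecOf]
    decide +kernel

/-- The order of a point stabiliser. -/
theorem card_KZ0 : Nat.card KZ0 = 443520 := by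
  have h := card_inf_stab KM Z0
    {x : leechLattice | sqNorm (x : V) = 32 ∧ dotInt (V0 : V) (x : V) = 0 ∧ dotInt (W1 : V) (x : V) = 16} Z0_mem
    (by
      rintro k hk z ⟨h1, h2, h3⟩
      obtain ⟨hk1, hk2⟩ := Subgroup.mem_inf.1 hk
      have hk1' : k • V0 = V0 := hk1
      have hk2' : k • W1 = W1 := hk2
      refine ⟨(co0_sqNorm k z).trans h1, ?_, ?_⟩
      · rw [← hk1', co0_dotInt]
        exact h2
      · rw [← hk2', co0_dotInt]
        exact h3)
    (by
      intro z hz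
      obtain ⟨k, h1, h2, h3⟩ := trans_Z V0 W1 Z0 z sqNorm_V0 sqNorm_W1 dot_V0_W1 Z0_mem hz
      exact ⟨k, Subgroup.mem_inf.2 ⟨h1, h2⟩, h3⟩)
  rw [ncard_Z V0 W1 sqNorm_V0 sqNorm_W1 dot_V0_W1] at h
  have h2 : Nat.card KM = 898128000 := card_stab_m8 V0 W1 sqNorm_V0 sqNorm_W1 dot_V0_W1
  rw [h2] at h
  have h3 : Nat.card KZ0 = Nat.card ↥(KM ⊓ stabilizer Co0 Z0) := rfl
  have h4 : Nat.card KZ0 * 2025 = 443520 * 2025 := by
    rw [h3]
    exact h.trans (by norm_num)
  exact Nat.eq_of_mul_eq_mul_right (by norm_num) h4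

theorem simple_KZ0 : IsSimpleGroup KZ0 := by
  refine simple_of_k2 KZ0 ?_ card_KZ0
  intro σ hσ
  refine Subgroup.mem_inf.2 ⟨Subgroup.mem_inf.2 ⟨?_, ?_⟩, ?_⟩
  · exact perm_fix_smul (l := v0L) (by decide +kernel) (inLattice_sound v0L_ok) hσ
  · exact perm_fix_smul (l := w1L) (by decide +kernel) (inLattice_sound w1L_ok) hσ
  · exact perm_fix_smul (l := z0L) (by decide +kernel) (inLattice_sound z0L_ok) hσ

theorem conj_mem_stab (g y : Co0) (v : leechLattice) : g * y * g⁻¹ ∈ stabilizer Co0 (g • v) ↔ y ∈ stabilizer Co0 v := by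
  simp only [mem_stabilizer_iff, mul_smul, inv_smul_smul]
  exact smul_left_cancel_iff g

/-- A point stabiliser is simple. -/
theorem simple_stab3 (v w x : leechLattice) (hv : sqNorm (v : V) = 32)
    (hw : sqNorm (w : V) = 32) (hvw : dotInt (v : V) (w : V) = -8)
    (hx : sqNorm (x : V) = 32 ∧ dotInt (v : V) (x : V) = 0 ∧ dotInt (w : V) (x : V) = 16) :
    IsSimpleGroup ↥(stabilizer Co0 v ⊓ stabilizer Co0 w ⊓ stabilizer Co0 x) := by
  obtain ⟨g, hg1, hg2, hg3⟩ := exists_frameZ v w x hv hw hvw hx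
  refine simple_of_conj g (B' := KZ0) ?_ simple_KZ0
  intro y
  simp only [Subgroup.mem_inf, KZ0, KM]
  rw [← hg1, ← hg2, ← hg3, conj_mem_stab, conj_mem_stab, conj_mem_stab]

theorem cover_R_exists {y : V} (hy : y ∈ setC condsZ) :
    ∃ q ∈ [part1, part330, part462, part1232], dotInt (vecOf z0L) y = q.c :=
  parts_exists [part1, part330, part462, part1232] (by decide +kernel) (by rw [ncard_setC_Z]; rfl)
    (Set.finite_of_ncard_pos (by rw [ncard_setC_Z]; norm_num)) hy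

/-- The McLaughlin group is simple. -/
theorem simple_McL (v w : leechLattice) (hv : sqNorm (v : V) = 32)
    (hw : sqNorm (w : V) = 32) (hvw : dotInt (v : V) (w : V) = -8) :
    IsSimpleGroup ↥(stabilizer Co0 v ⊓ stabilizer Co0 w) := by
  classical
  obtain ⟨g, hg1, hg2⟩ := exists_frameM v w hv hw hvw
  set S : Set leechLattice := {x : leechLattice | sqNorm (x : V) = 32 ∧ dotInt (v : V) (x : V) = 0 ∧ dotInt (w : V) (x : V) = 16} with hSdef
  have hc : S.ncard = 2025 := ncard_Z v w hv hw hvw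
  let a : leechLattice := g⁻¹ • Z0
  have hg3 : g • a = Z0 := smul_inv_smul g Z0
  have ha : a ∈ S := by
    have h1 := (mem_Z_frame hg1 hg2 a).2 (by
      rw [hg3]
      intro bt hbt
      simp only [condsZ, List.mem_cons, List.not_mem_nil, or_false] at hbt
      rcases hbt with rfl | rfl
      · exact Z0_mem.2.1
      · exact Z0_mem.2.2)
    exact ⟨(co0_sqNorm _ _).trans Z0_mem.1, h1.1, h1.2⟩
  have hcardD : ∀ c : ℤ, {y : leechLattice | y ∈ S ∧ dotInt (a : V) (y : V) = c}.ncard = (setC ((z0L, c) :: condsZ)).ncard := by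
    intro c
    rw [← ncard_SetZ hg1 hg2 hg3 c]
    congr 1
    ext y
    constructor
    · rintro ⟨⟨h1, h2, h3⟩, h4⟩
      exact ⟨h1, h2, h3, h4⟩
    · rintro ⟨h1, h2, h3, h4⟩
      exact ⟨⟨h1, h2, h3⟩, h4⟩
  refine simple_of_dots (stabilizer Co0 v ⊓ stabilizer Co0 w) S ?_ (Set.finite_of_ncard_pos (by omega)) a ha ha.1 ?_
    [(0, 330), (16, 462), (8, 1232)] ?_ (by decide) ?_ ?_ ?_ (by rw [hc]; decide) ?_ ⟨(0, 330), by simp, by norm_num⟩ ?_
  · rintro k hk z ⟨h1, h2, h3⟩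
    obtain ⟨hk1, hk2⟩ := Subgroup.mem_inf.1 hk
    have hk1' : k • v = v := hk1
    have hk2' : k • w = w := hk2
    refine ⟨(co0_sqNorm k z).trans h1, ?_, ?_⟩
    · rw [← hk1', co0_dotInt]
      exact h2
    · rw [← hk2', co0_dotInt]
      exact h3
  · intro z hz
    obtain ⟨k, h1, h2, h3⟩ := trans_Z v w a z hv hw hvw ha hz
    exact ⟨k, Subgroup.mem_inf.2 ⟨h1, h2⟩, h3⟩
  · intro q hq
    simp only [List.mem_cons, List.not_mem_nil, or_false] at hq
    rcases hq with rfl | rfl | rfl <;> norm_num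
  · intro q hq
    simp only [List.mem_cons, List.not_mem_nil, or_false] at hq
    rcases hq with rfl | rfl | rfl
    · rw [hcardD]
      exact ncard_partR (q := part330) (by simp) rfl rfl
    · rw [hcardD]
      exact ncard_partR (q := part462) (by simp) rfl rfl
    · rw [hcardD]
      exact ncard_partR (q := part1232) (by simp) rfl rfl
  · intro y hy hne
    have h1 : ((g • y : leechLattice) : V) ∈ setC condsZ :=
      ⟨(g • y).2, (co0_sqNorm g y).trans hy.1, (mem_Z_frame hg1 hg2 y).1 hy.2⟩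
    obtain ⟨q, hq, e⟩ := cover_R_exists h1
    have e2 : dotInt (vecOf z0L) ((g • y : leechLattice) : V) = dotInt (a : V) (y : V) := by
      show dotInt (Z0 : V) ((g • y : leechLattice) : V) = _
      rw [← hg3, co0_dotInt]
    rw [e2] at e
    simp only [List.mem_cons, List.not_mem_nil, or_false] at hq
    rcases hq with rfl | rfl | rfl | rfl
    · exact absurd (eq_of_dot_32 ha.1 hy.1 e).symm hne
    · exact ⟨(0, 330), by simp, e⟩
    · exact ⟨(16, 462), by simp, e⟩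
    · exact ⟨(8, 1232), by simp, e⟩
  · intro q hq y hy y' hy' h1 h2
    have key : ∀ (r : List ℤ), (∀ z, z ∈ leechLattice → sqNorm z = 32 → condsQ ((z0L, q.1) :: condsZ) z → SameIn KZ0 (vecOf r) z) →
        ∃ h ∈ stabilizer Co0 v ⊓ stabilizer Co0 w, h • a = a ∧ h • y = y' := by
      intro r H
      have s1 := H _ (g • y).2 ((co0_sqNorm g y).trans hy.1) ((mem_frameZ hg1 hg2 hg3 q.1 y).1 ⟨hy.2.1, hy.2.2, h1⟩)
      have s2 := H _ (g • y').2 ((co0_sqNorm g y').trans hy'.1) ((mem_frameZ hg1 hg2 hg3 q.1 y').1 ⟨hy'.2.1, hy'.2.2, h2⟩)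
      obtain ⟨h, hh, e⟩ := exists_of_orbit s1 s2
      obtain ⟨hh0, hh3⟩ := Subgroup.mem_inf.1 hh
      obtain ⟨f1, f2⟩ := frame_fixM hg1 hg2 hh0
      have hh3' : h • Z0 = Z0 := hh3
      refine ⟨g⁻¹ * h * g, Subgroup.mem_inf.2 ⟨f1, f2⟩, ?_, ?_⟩
      · rw [mul_smul, mul_smul, hg3, hh3', ← hg3, inv_smul_smul]
      · rw [mul_smul, mul_smul, e, inv_smul_smul]
    simp only [List.mem_cons, List.not_mem_nil, or_false] at hq
    rcases hq with rfl | rfl | rfl
    · exact key _ (orbit_partR (q := part330) (by simp) rfl rfl)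
    · exact key _ (orbit_partR (q := part462) (by simp) rfl rfl)
    · exact key _ (orbit_partR (q := part1232) (by simp) rfl rfl)
  · exact simple_stab3 v w a hv hw hvw ha
  · intro N _ _ hN hC
    exact false_2025 (by rw [hN, hc]) hC

end Cfsg.Agent.Lib.Sporadic.LeechMcT
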