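import Mathlib
import Cfsg.Agent.Lib.Sporadic.LeechMcTs
import Cfsg.Agent.Lib.Sporadic.LeechCo2RM16
import Cfsg.Agent.Lib.Sporadic.LeechCo2RP16
import Cfsg.Agent.Lib.Sporadic.LeechCo2RM8
import Cfsg.Agent.Lib.Sporadic.LeechCo2RP8
import Cfsg.Agent.Lib.Sporadic.LeechCo2RZ

/-!
# The stabiliser of a minimal vector is simple of order 42305421312000

It acts on the 47104 minimal vectors of inner product `-8` with the given vector, with rank six,
and point stabilisers the simple group of order 898128000.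
-/

set_option autoImplicit false

namespace Cfsg.Agent.Lib.Sporadic.LeechCo2

open Cfsg Cfsg.Agent.Lib.Sporadic.GolayCore Cfsg.Agent.Lib.Sporadic.LeechBasic
  Cfsg.Agent.Lib.Sporadic.LeechNorm Cfsg.Agent.Lib.Sporadic.LeechFacts
  Cfsg.Agent.Lib.Sporadic.LeechAut Cfsg.Agent.Lib.Sporadic.LeechMat
  Cfsg.Agent.Lib.Sporadic.LeechOrb Cfsg.Agent.Lib.Sporadic.LeechShape
  Cfsg.Agent.Lib.Sporadic.LeechKey Cfsg.Agent.Lib.Sporadic.LeechMin
  Cfsg.Agent.Lib.Sporadic.LeechA0 Cfsg.Agent.Lib.Sporadic.LeechEnum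
  Cfsg.Agent.Lib.Sporadic.LeechTree
  Cfsg.Agent.Lib.Sporadic.M24Chain Cfsg.Agent.Lib.Sporadic.M24Tbl
open Cfsg.Agent.Lib.Sporadic.LeechOrders Cfsg.Agent.Lib.Sporadic.LeechSimple
  Cfsg.Agent.Lib.Sporadic.LeechK2 Cfsg.Agent.Lib.Sporadic.SimpleAct
open Cfsg.Agent.Lib.Sporadic.LeechMcT
open MulAction

def condsS : List (List ℤ × ℤ) := [(v0L, -8)]

theorem fixes_WV (c d : ℤ) : FixesC KM [(w1L, c), (v0L, d)] := by
  intro bt hbt
  simp only [List.mem_cons, List.not_mem_nil, or_false] at hbt
  rcases hbt with rfl | rfl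
  · exact ⟨inLattice_sound w1L_ok, inf_le_right⟩
  · exact ⟨inLattice_sound v0L_ok, inf_le_left⟩

theorem ncard_S : (setC condsS).ncard = 47104 := by
  have h := (Cfsg.Agent.S1573.result (vecOf v0L) (inLattice_sound v0L_ok) (by
    rw [sqNorm_vecOf]
    decide +kernel)).2.1
  rw [← h]
  congr 1
  ext w
  simp only [setC, condsS, condsQ, List.mem_singleton, forall_eq, Set.mem_ofPred_eq]

def partW : PartD KM (setC condsS) (dotInt (vecOf w1L)) :=
  mkPart (fuel := 0) (cert := 0) (c0 := 32) (p := fun _ => true) m_genok (by decide +kernel)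
    (inLattice_sound w1L_ok) (by decide +kernel) rfl rfl (fixes_WV _ _)
    (hroot2 (by decide +kernel) (by decide +kernel))

def partM16 : PartD KM (setC condsS) (dotInt (vecOf w1L)) :=
  mkPart (c0 := -16) m_genok (by decide +kernel) (inLattice_sound rm16L_ok) (by decide +kernel) run_m16 rfl
    (fixes_WV _ _) (hroot2 (by decide +kernel) (by decide +kernel))

def partP16 : PartD KM (setC condsS) (dotInt (vecOf w1L)) :=
  mkPart (c0 := 16) m_genok (by decide +kernel) (inLattice_sound rp16L_ok) (by decide +kernel) run_p16 rfl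
    (fixes_WV _ _) (hroot2 (by decide +kernel) (by decide +kernel))

def partM8 : PartD KM (setC condsS) (dotInt (vecOf w1L)) :=
  mkPart (c0 := -8) m_genok (by decide +kernel) (inLattice_sound rm8L_ok) (by decide +kernel) run_m8 rfl
    (fixes_WV _ _) (hroot2 (by decide +kernel) (by decide +kernel))

def partP8 : PartD KM (setC condsS) (dotInt (vecOf w1L)) :=
  mkPart (c0 := 8) m_genok (by decide +kernel) (inLattice_sound rp8L_ok) (by decide +kernel) run_p8 rfl
    (fixes_WV _ _) (hroot2 (by decide +kernel) (by decide +kernel))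

def partZ : PartD KM (setC condsS) (dotInt (vecOf w1L)) :=
  mkPart (c0 := 0) m_genok (by decide +kernel) (inLattice_sound rzL_ok) (by decide +kernel) run_z rfl
    (fixes_WV _ _) (hroot2 (by decide +kernel) (by decide +kernel))

theorem cover_S (q : PartD KM (setC condsS) (dotInt (vecOf w1L)))
    (hq : q ∈ [partW, partM16, partP16, partM8, partP8, partZ]) :
    (∀ x ∈ setC condsS, dotInt (vecOf w1L) x = q.c → SameIn KM q.r x) ∧
      {x | x ∈ setC condsS ∧ dotInt (vecOf w1L) x = q.c}.ncard = q.n :=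
  parts_cover [partW, partM16, partP16, partM8, partP8, partZ] (by decide +kernel) (by rw [ncard_S]; rfl)
    (Set.finite_of_ncard_pos (by rw [ncard_S]; norm_num)) q hq

theorem cover_S_exists {y : V} (hy : y ∈ setC condsS) :
    ∃ q ∈ [partW, partM16, partP16, partM8, partP8, partZ], dotInt (vecOf w1L) y = q.c :=
  parts_exists [partW, partM16, partP16, partM8, partP8, partZ] (by decide +kernel) (by rw [ncard_S]; rfl)
    (Set.finite_of_ncard_pos (by rw [ncard_S]; norm_num)) hy

theorem orbit_partS {c : ℤ} {r : List ℤ} {q : PartD KM (setC condsS) (dotInt (vecOf w1L))}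
    (hq : q ∈ [partW, partM16, partP16, partM8, partP8, partZ]) (h1 : q.r = vecOf r) (h2 : q.c = c) :
    ∀ z, z ∈ leechLattice → sqNorm z = 32 → condsQ ((w1L, c) :: condsS) z → SameIn KM (vecOf r) z := by
  intro z hz1 hz2 hz3
  have hm := mem_setC_cons.1 (show z ∈ setC ((w1L, c) :: condsS) from ⟨hz1, hz2, hz3⟩)
  have := (cover_S q hq).1 z hm.1 (by rw [hm.2, h2])
  rwa [h1] at this

theorem ncard_partS {c : ℤ} {n : ℕ} {q : PartD KM (setC condsS) (dotInt (vecOf w1L))}
    (hq : q ∈ [partW, partM16, partP16, partM8, partP8, partZ]) (h2 : q.c = c) (h3 : q.n = n) :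
    (setC ((w1L, c) :: condsS)).ncard = n := by
  rw [setC_cons, ← h2, ← h3]
  exact (cover_S q hq).2

theorem mem_S_frame {g : Co0} {v : leechLattice} (hv : g • v = V0) (z : leechLattice) :
    dotInt (v : V) (z : V) = -8 ↔ condsQ condsS ((g • z : leechLattice) : V) := by
  have h1 : condsQ condsS ((g • z : leechLattice) : V) ↔ dotInt (V0 : V) ((g • z : leechLattice) : V) = -8 := by
    simp only [condsQ, condsS, List.mem_singleton, forall_eq]
    exact Iff.rfl
  rw [h1, ← hv, co0_dotInt]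

theorem mem_S_frame2 {g : Co0} {v a : leechLattice} (hv : g • v = V0) (ha : g • a = W1) (c : ℤ) (z : leechLattice) :
    (dotInt (v : V) (z : V) = -8 ∧ dotInt (a : V) (z : V) = c) ↔
      condsQ ((w1L, c) :: condsS) ((g • z : leechLattice) : V) := by
  have h1 : condsQ ((w1L, c) :: condsS) ((g • z : leechLattice) : V) ↔
      dotInt (W1 : V) ((g • z : leechLattice) : V) = c ∧ condsQ condsS ((g • z : leechLattice) : V) := by
    simp only [condsQ, List.mem_cons, forall_eq_or_imp]
    exact Iff.rfl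
  rw [h1, ← mem_S_frame hv z, ← ha, co0_dotInt]
  tauto

/-- The stabiliser of a minimal vector is simple. -/
theorem simple_Co2 (v : leechLattice) (hv : sqNorm (v : V) = 32) : IsSimpleGroup (stabilizer Co0 v) := by
  classical
  obtain ⟨g, hg0⟩ := co0_transitive_min v V0 hv sqNorm_V0
  set S : Set leechLattice := {x : leechLattice | sqNorm (x : V) = 32 ∧ dotInt (v : V) (x : V) = -8} with hSdef
  have hc : S.ncard = 47104 := by
    rw [hSdef, ncard_sub (fun x => sqNorm x = 32 ∧ dotInt (v : V) x = -8)]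
    exact (Cfsg.Agent.S1573.result (v : V) v.2 hv).2.1
  let a : leechLattice := g⁻¹ • W1
  have hg1 : g • a = W1 := smul_inv_smul g W1
  have ha : a ∈ S := by
    refine ⟨(co0_sqNorm _ _).trans sqNorm_W1, ?_⟩
    have h1 : dotInt ((g • v : leechLattice) : V) ((g • a : leechLattice) : V) = -8 := by
      rw [hg0, hg1]
      exact dot_V0_W1
    rwa [co0_dotInt] at h1
  have hcardD : ∀ c : ℤ, {y : leechLattice | y ∈ S ∧ dotInt (a : V) (y : V) = c}.ncard =
      (setC ((w1L, c) :: condsS)).ncard := by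
    intro c
    have e : {y : leechLattice | y ∈ S ∧ dotInt (a : V) (y : V) = c} =
        {y : leechLattice | sqNorm (y : V) = 32 ∧ (dotInt (v : V) (y : V) = -8 ∧ dotInt (a : V) (y : V) = c)} := by
      ext y
      constructor
      · rintro ⟨⟨h1, h2⟩, h3⟩
        exact ⟨h1, h2, h3⟩
      · rintro ⟨h1, h2, h3⟩
        exact ⟨⟨h1, h2⟩, h3⟩
    rw [e, ncard_sub (fun y => sqNorm y = 32 ∧ (dotInt (v : V) y = -8 ∧ dotInt (a : V) y = c))]
    exact ncard_transport g 32 (fun y => dotInt (v : V) y = -8 ∧ dotInt (a : V) y = c) _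
      (fun z => mem_S_frame2 hg0 hg1 c z)
  refine simple_of_dots (stabilizer Co0 v) S ?_ (Set.finite_of_ncard_pos (by omega)) a ha ha.1 ?_
    [(-16, 275), (16, 2025), (-8, 7128), (8, 15400), (0, 22275)] ?_ (by decide) ?_ ?_ ?_
    (by rw [hc]; decide) ?_ ⟨(-16, 275), by simp, by norm_num⟩ ?_
  · rintro k hk z ⟨h1, h2⟩
    have hk1' : k • v = v := hk
    refine ⟨(co0_sqNorm k z).trans h1, ?_⟩
    rw [← hk1', co0_dotInt]
    exact h2
  · rintro z ⟨h1, h2⟩
    obtain ⟨k, hk1, hk2⟩ := co2_trans_m8 v a z hv ha.1 h1 ha.2 h2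
    exact ⟨k, hk1, hk2⟩
  · intro q hq
    simp only [List.mem_cons, List.not_mem_nil, or_false] at hq
    rcases hq with rfl | rfl | rfl | rfl | rfl <;> norm_num
  · intro q hq
    simp only [List.mem_cons, List.not_mem_nil, or_false] at hq
    rcases hq with rfl | rfl | rfl | rfl | rfl
    · rw [hcardD]
      exact ncard_partS (q := partM16) (by simp) rfl rfl
    · rw [hcardD]
      exact ncard_partS (q := partP16) (by simp) rfl rfl
    · rw [hcardD]
      exact ncard_partS (q := partM8) (by simp) rfl rfl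
    · rw [hcardD]
      exact ncard_partS (q := partP8) (by simp) rfl rfl
    · rw [hcardD]
      exact ncard_partS (q := partZ) (by simp) rfl rfl
  · intro y hy hne
    have h1 : ((g • y : leechLattice) : V) ∈ setC condsS :=
      ⟨(g • y).2, (co0_sqNorm g y).trans hy.1, (mem_S_frame hg0 y).1 hy.2⟩
    obtain ⟨q, hq, e⟩ := cover_S_exists h1
    have e2 : dotInt (vecOf w1L) ((g • y : leechLattice) : V) = dotInt (a : V) (y : V) := by
      show dotInt (W1 : V) ((g • y : leechLattice) : V) = _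
      rw [← hg1, co0_dotInt]
    rw [e2] at e
    simp only [List.mem_cons, List.not_mem_nil, or_false] at hq
    rcases hq with rfl | rfl | rfl | rfl | rfl | rfl
    · exact absurd (eq_of_dot_32 ha.1 hy.1 e).symm hne
    · exact ⟨(-16, 275), by simp, e⟩
    · exact ⟨(16, 2025), by simp, e⟩
    · exact ⟨(-8, 7128), by simp, e⟩
    · exact ⟨(8, 15400), by simp, e⟩
    · exact ⟨(0, 22275), by simp, e⟩
  · intro q hq y hy y' hy' h1 h2
    have key : ∀ (r : List ℤ), (∀ z, z ∈ leechLattice → sqNorm z = 32 → condsQ ((w1L, q.1) :: condsS) z → SameIn KM (vecOf r) z) →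
        ∃ h ∈ stabilizer Co0 v, h • a = a ∧ h • y = y' := by
      intro r H
      have s1 := H _ (g • y).2 ((co0_sqNorm g y).trans hy.1) ((mem_S_frame2 hg0 hg1 q.1 y).1 ⟨hy.2, h1⟩)
      have s2 := H _ (g • y').2 ((co0_sqNorm g y').trans hy'.1) ((mem_S_frame2 hg0 hg1 q.1 y').1 ⟨hy'.2, h2⟩)
      obtain ⟨h, hh, e⟩ := exists_of_orbit s1 s2
      obtain ⟨f1, f2⟩ := frame_fixM hg0 hg1 hh
      refine ⟨g⁻¹ * h * g, f1, f2, ?_⟩
      rw [mul_smul, mul_smul, e, inv_smul_smul]
    simp only [List.mem_cons, List.not_mem_nil, or_false] at hq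
    rcases hq with rfl | rfl | rfl | rfl | rfl
    · exact key _ (orbit_partS (q := partM16) (by simp) rfl rfl)
    · exact key _ (orbit_partS (q := partP16) (by simp) rfl rfl)
    · exact key _ (orbit_partS (q := partM8) (by simp) rfl rfl)
    · exact key _ (orbit_partS (q := partP8) (by simp) rfl rfl)
    · exact key _ (orbit_partS (q := partZ) (by simp) rfl rfl)
  · exact simple_McL v a hv ha.1 ha.2
  · intro N _ _ hN hC
    exact false_47104 (by rw [hN, hc]) hC

end Cfsg.Agent.Lib.Sporadic.LeechCo2
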