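import Mathlib
import Cfsg.Agent.Lib.Sporadic.LeechHSd
import Cfsg.Agent.Lib.Sporadic.LeechHSs

/-!
# The stabiliser of a vector of norm 48 is simple of order 495766656000
-/

set_option autoImplicit false

namespace Cfsg.Agent.Lib.Sporadic.LeechHS

open Cfsg Cfsg.Agent.Lib.Sporadic.GolayCore Cfsg.Agent.Lib.Sporadic.LeechBasic
  Cfsg.Agent.Lib.Sporadic.LeechNorm Cfsg.Agent.Lib.Sporadic.LeechFacts
  Cfsg.Agent.Lib.Sporadic.LeechAut Cfsg.Agent.Lib.Sporadic.LeechMat
  Cfsg.Agent.Lib.Sporadic.LeechOrb Cfsg.Agent.Lib.Sporadic.LeechShape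
  Cfsg.Agent.Lib.Sporadic.LeechKey Cfsg.Agent.Lib.Sporadic.LeechMin
  Cfsg.Agent.Lib.Sporadic.LeechA0 Cfsg.Agent.Lib.Sporadic.LeechEnum
  Cfsg.Agent.Lib.Sporadic.LeechTree
  Cfsg.Agent.Lib.Sporadic.M24Chain Cfsg.Agent.Lib.Sporadic.M24Tbl
open Cfsg.Agent.Lib.Sporadic.LeechCo3 Cfsg.Agent.Lib.Sporadic.LeechOrders Cfsg.Agent.Lib.Sporadic.LeechSimple
  Cfsg.Agent.Lib.Sporadic.LeechK2 Cfsg.Agent.Lib.Sporadic.SimpleAct
open MulAction

theorem cover_X_exists {y : V} (hy : y ∈ setC [(u0L, -16)]) :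
    ∃ q ∈ [partX, partM8, partP16, partZ, partP8], dotInt (vecOf x0L) y = q.c :=
  parts_exists [partX, partM8, partP16, partZ, partP8] (by decide +kernel) (by rw [ncard_setC_X]; rfl)
    (Set.finite_of_ncard_pos (by rw [ncard_setC_X]; norm_num)) hy

/-- The third Conway group is simple. -/
theorem simple_Co3 (u : leechLattice) (hu : sqNorm (u : V) = 48) : IsSimpleGroup ↥(stabilizer Co0 u) := by
  classical
  obtain ⟨g, hg1⟩ := Cfsg.Agent.Lib.Sporadic.LeechOrbits.co0_transitive_48 u U0 hu sqNorm_U0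
  set S : Set leechLattice := {x : leechLattice | sqNorm (x : V) = 32 ∧ dotInt (u : V) (x : V) = -16} with hSdef
  have hc : S.ncard = 11178 := ncard_X u hu
  let a : leechLattice := g⁻¹ • X0
  have hg2 : g • a = X0 := smul_inv_smul g X0
  have ha : a ∈ S := by
    refine ⟨(co0_sqNorm _ _).trans sqNorm_X0, ?_⟩
    rw [← co0_dotInt g, hg1, hg2]
    exact dot_U0_X0
  have hcardD : ∀ c : ℤ, {y : leechLattice | y ∈ S ∧ dotInt (a : V) (y : V) = c}.ncard = (setC [(x0L, c), (u0L, -16)]).ncard := by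
    intro c
    rw [← ncard_SetC hg1 hg2 c]
    congr 1
    ext y
    constructor
    · rintro ⟨⟨h1, h2⟩, h3⟩
      exact ⟨h1, h2, h3⟩
    · rintro ⟨h1, h2, h3⟩
      exact ⟨⟨h1, h2⟩, h3⟩
  refine simple_of_dots (stabilizer Co0 u) S ?_ (Set.finite_of_ncard_pos (by omega)) a ha ha.1 ?_
    [(-8, 352), (16, 1100), (0, 4125), (8, 5600)] ?_ (by decide) ?_ ?_ ?_ (by rw [hc]; decide) ?_ ⟨(16, 1100), by simp, by norm_num⟩ ?_
  · rintro k hk z ⟨h1, h2⟩
    have hk' : k • u = u := hk
    refine ⟨(co0_sqNorm k z).trans h1, ?_⟩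
    rw [← hk', co0_dotInt]
    exact h2
  · intro z hz
    obtain ⟨k, h1, h2⟩ := trans_X u a z hu ha hz
    exact ⟨k, h1, h2⟩
  · intro q hq
    simp only [List.mem_cons, List.not_mem_nil, or_false] at hq
    rcases hq with rfl | rfl | rfl | rfl <;> norm_num
  · intro q hq
    simp only [List.mem_cons, List.not_mem_nil, or_false] at hq
    rcases hq with rfl | rfl | rfl | rfl
    · rw [hcardD]
      exact ncard_part (q := partM8) (by simp) rfl rfl
    · rw [hcardD]
      exact ncard_part (q := partP16) (by simp) rfl rfl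
    · rw [hcardD]
      exact ncard_part (q := partZ) (by simp) rfl rfl
    · rw [hcardD]
      exact ncard_part (q := partP8) (by simp) rfl rfl
  · intro y hy hne
    have h1 : ((g • y : leechLattice) : V) ∈ setC [(u0L, -16)] := by
      refine ⟨(g • y).2, (co0_sqNorm g y).trans hy.1, ?_⟩
      intro bt hbt
      simp only [List.mem_singleton] at hbt
      subst hbt
      show dotInt (U0 : V) ((g • y : leechLattice) : V) = -16
      rw [← hg1, co0_dotInt]
      exact hy.2
    obtain ⟨q, hq, e⟩ := cover_X_exists h1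
    have e2 : dotInt (vecOf x0L) ((g • y : leechLattice) : V) = dotInt (a : V) (y : V) := by
      show dotInt (X0 : V) ((g • y : leechLattice) : V) = _
      rw [← hg2, co0_dotInt]
    rw [e2] at e
    simp only [List.mem_cons, List.not_mem_nil, or_false] at hq
    rcases hq with rfl | rfl | rfl | rfl | rfl
    · exact absurd (eq_of_dot_32 ha.1 hy.1 e).symm hne
    · exact ⟨(-8, 352), by simp, e⟩
    · exact ⟨(16, 1100), by simp, e⟩
    · exact ⟨(0, 4125), by simp, e⟩
    · exact ⟨(8, 5600), by simp, e⟩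
  · intro q hq y hy y' hy' h1 h2
    have key : ∀ (r : List ℤ), (∀ z, z ∈ leechLattice → sqNorm z = 32 → condsQ [(x0L, q.1), (u0L, -16)] z → SameIn KH (vecOf r) z) →
        ∃ h ∈ stabilizer Co0 u, h • a = a ∧ h • y = y' := by
      intro r H
      have s1 := H _ (g • y).2 ((co0_sqNorm g y).trans hy.1) ((mem_frameC hg1 hg2 q.1 y).1 ⟨hy.2, h1⟩)
      have s2 := H _ (g • y').2 ((co0_sqNorm g y').trans hy'.1) ((mem_frameC hg1 hg2 q.1 y').1 ⟨hy'.2, h2⟩)
      obtain ⟨h, hh, e⟩ := exists_of_orbit s1 s2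
      obtain ⟨f1, f2⟩ := KH_fix_X0 hh
      refine ⟨g⁻¹ * h * g, ?_, ?_, ?_⟩
      · show (g⁻¹ * h * g) • u = u
        rw [mul_smul, mul_smul, hg1, f1, ← hg1, inv_smul_smul]
      · rw [mul_smul, mul_smul, hg2, f2, ← hg2, inv_smul_smul]
      · rw [mul_smul, mul_smul, e, inv_smul_smul]
    simp only [List.mem_cons, List.not_mem_nil, or_false] at hq
    rcases hq with rfl | rfl | rfl | rfl
    · exact key _ (orbit_part (q := partM8) (by simp) rfl rfl)
    · exact key _ (orbit_part (q := partP16) (by simp) rfl rfl)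
    · exact key _ (orbit_part (q := partZ) (by simp) rfl rfl)
    · exact key _ (orbit_part (q := partP8) (by simp) rfl rfl)
  · have hcoe : ((-(u + a) : leechLattice) : V) = -((u : V) + (a : V)) := rfl
    rw [stab_pair_eq]
    refine simple_HS u _ hu ?_ ?_
    · rw [hcoe, sqNorm_neg, sqNorm_add, ha.2, hu, ha.1]
      norm_num
    · rw [hcoe, dotInt_neg_right, dotInt_add_right, dotInt_self, hu, ha.2]
      norm_num
  · intro N _ _ hN hC
    exact false_11178 (by rw [hN, hc]) hC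

end Cfsg.Agent.Lib.Sporadic.LeechHS
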